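import Cfsg.Agent.H540.E8C.Sz.Iface
import Cfsg.Agent.S1163
import Cfsg.Agent.S1162
import Cfsg.Agent.S2126
import Cfsg.Agent.S1265
import Cfsg.Agent.H489.OutClassical

/-!
# Finite groups with generalized Fitting subgroup `Sz(8)` (helper887, S5919, task SZ3)
-/

set_option autoImplicit false

namespace Cfsg.Agent.H887.Sz

open Subgroup
open Cfsg.Agent.H540.E8C.Sz

universe u

theorem grp_aux {F : Type u} [Field F] [Fintype F] (hF : Fintype.card F = 8) {n : ℕ} (hn : n = 2 ^ (1 + 1))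
    (H : Type) [Group H] [Finite H]
    (he : Nonempty (↥(Cfsg.generalizedFittingSubgroup H) ≃* ↥(Cfsg.Lie.Sz F n))) :
    Nat.card H = 29120 ∨ Nat.card H = 3 * 29120 := by
  subst hn
  have hF3 : Fintype.card F = 2 ^ (2 * 1 + 1) := by rw [hF]; norm_num
  obtain ⟨e⟩ := he
  have hs : IsSimpleGroup (Cfsg.Lie.Sz F (2 ^ (1 + 1))) := Cfsg.Agent.S1162.result le_rfl hF3
  have hcard : Nat.card (Cfsg.Lie.Sz F (2 ^ (1 + 1))) = 29120 := by
    rw [(Cfsg.Agent.S1163.result le_rfl hF3).1]
    norm_num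
  have hna : ¬ IsMulCommutative (Cfsg.Lie.Sz F (2 ^ (1 + 1))) := by
    intro h
    have := Cfsg.Agent.S1162.result (F := F) (m := 1) le_rfl hF3
    have hp : (Nat.card (Cfsg.Lie.Sz F (2 ^ (1 + 1)))).Prime := by
      let _ : CommGroup (Cfsg.Lie.Sz F (2 ^ (1 + 1))) := { (inferInstance : Group (Cfsg.Lie.Sz F (2 ^ (1 + 1)))) with
        mul_comm := fun a b => h.is_comm.comm a b }
      exact IsSimpleGroup.prime_card
    rw [hcard] at hp
    norm_num at hp
  have hZ := Cfsg.Agent.H489.center_eq_bot hna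
  have hA : Nat.card (MulAut (Cfsg.Lie.Sz F (2 ^ (1 + 1)))) = 3 * 29120 := by
    rw [← Cfsg.Agent.H489.card_out_mul hZ, Cfsg.Agent.S2126.result le_rfl hF3, hcard]
  set N := Cfsg.generalizedFittingSubgroup H with hN
  have hFit : N.Normal := Cfsg.Agent.Lib.GenFitting.genFitting_normal
  have hcen : Subgroup.centralizer (N : Set H) = ⊥ := by
    rw [eq_bot_iff]
    intro g hg
    have h1 : g ∈ N := Cfsg.Agent.S1265.result hg
    have h2 : (⟨g, h1⟩ : ↥N) ∈ Subgroup.center ↥N := by
      rw [Subgroup.mem_center_iff]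
      intro x
      exact Subtype.ext (Subgroup.mem_centralizer_iff.1 hg x x.2)
    have h3 : e ⟨g, h1⟩ ∈ Subgroup.center (Cfsg.Lie.Sz F (2 ^ (1 + 1))) := by
      rw [Subgroup.mem_center_iff] at h2 ⊢
      intro y
      obtain ⟨x, rfl⟩ := e.surjective y
      rw [← map_mul, h2 x, map_mul]
    rw [hZ, Subgroup.mem_bot, map_eq_one_iff e e.injective] at h3
    rw [Subgroup.mem_bot]
    exact congrArg Subtype.val h3
  have hinj : Function.Injective (MulAut.conjNormal : H →* MulAut N) := by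
    rw [injective_iff_map_eq_one]
    intro g hg
    have h2 : g ∈ Subgroup.centralizer (N : Set H) := by
      rw [Subgroup.mem_centralizer_iff]
      intro t ht
      have h3 : ((MulAut.conjNormal g (⟨t, ht⟩ : N) : N) : H) = t := by rw [hg]; rfl
      rw [MulAut.conjNormal_apply] at h3
      have h4 : g * t * g⁻¹ = t := h3
      rw [mul_inv_eq_iff_eq_mul] at h4
      exact h4.symm
    rwa [hcen, Subgroup.mem_bot] at h2
  have h1 : Nat.card H ∣ 3 * 29120 := by
    rw [← hA, ← Nat.card_congr (MulAut.congr e).toEquiv, ← Nat.card_congr (MonoidHom.ofInjective hinj).symm.toEquiv]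
    exact Subgroup.card_subgroup_dvd_card _
  have h2 : 29120 ∣ Nat.card H := by
    rw [← hcard, ← Nat.card_congr e.toEquiv]
    exact Subgroup.card_subgroup_dvd_card N
  obtain ⟨k, hk⟩ := h2
  rw [hk] at h1 ⊢
  have h3 : k ∣ 3 := by
    rw [mul_comm] at h1
    exact Nat.dvd_of_mul_dvd_mul_right (by norm_num) h1
  rcases (Nat.dvd_prime Nat.prime_three).1 h3 with h | h
  · left; rw [h]
  · right; rw [h]

/-- **Task SZ3** -/
theorem grp : Grp.{u} := fun _ _ _ hF H _ _ he => grp_aux hF (by norm_num) H he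

end Cfsg.Agent.H887.Sz
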